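import Cfsg.Agent.H635.CJ.Frob
import Cfsg.Agent.CoThreeStd.BaseSix
import Cfsg.Agent.H555.TwoSp.CoThreeFacts

/-!
# A Frobenius group `3⁵ : 22` in `Co₃` with complement a full centralizer (helper635)

`x` of order 22, `t = x ^ 11`, `a = t t ^ g` of order three in a subgroup `3⁵` normalized by `x`; the elements of order 11
have centralizers of order 22.
-/

set_option autoImplicit false
set_option maxRecDepth 100000

namespace Cfsg.Agent.H635.CJ.CoThree

open Cfsg Cfsg.Agent.SporadicStructure.PermChain Cfsg.Agent.LeechPack.X552 Cfsg.Agent.CoThreeStd.Gens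
  Cfsg.Agent.CoThreeStd.Model Cfsg.Agent.McLType

/-- the element of the model given by a word -/
noncomputable def val (w : List (Fin 8)) : G3 := (w.map m).prod

theorem val_append (v w : List (Fin 8)) : val (v ++ w) = val v * val w := by
  simp [val]

theorem val_nil : val [] = 1 := rfl

/-- the word evaluated at a point -/
def ev (w : List (Fin 8)) (i : ℕ) : ℕ := evalWord 10 tabs (w.map (fun k => (k : ℕ))) i

theorem ev_eq (w : List (Fin 8)) (i : Fin 552) : (ψ (val w) i : ℕ) = ev w i := by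
  rw [val, map_list_prod, List.map_map]
  have h2 : (ψ ∘ m) = σ := funext ψ_m
  rw [h2, evalWord_σ]
  rfl

/-- the test -/
def chkW (v w : List (Fin 8)) : Bool :=
  [120, 462, 5, 183, 387, 0].all fun i => Nat.beq (ev v i) (ev w i)

theorem eq_of_chkW {v w : List (Fin 8)} (h : chkW v w = true) : val v = val w := by
  unfold chkW at h
  simp only [List.all_cons, List.all_nil, Bool.and_true, Bool.and_eq_true] at h
  obtain ⟨h1, h2, h3, h4, h5, h6⟩ := h
  apply Cfsg.Agent.CoThreeStd.BaseSix.eq_of_base <;> apply Fin.ext <;> rw [ev_eq, ev_eq] <;>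
    apply Nat.eq_of_beq_eq_true <;> assumption

theorem ne_one_of_ev {w : List (Fin 8)} (h : Nat.beq (ev w 0) 0 = false) : val w ≠ 1 := by
  intro h2
  have h3 := ev_eq w 0
  rw [h2, map_one] at h3
  have h4 : (0 : ℕ) = ev w 0 := h3
  rw [← h4] at h
  exact absurd h (by decide)

/-- repeated word -/
def pw (w : List (Fin 8)) : ℕ → List (Fin 8)
  | 0 => []
  | n + 1 => pw w n ++ w

theorem val_pw (w : List (Fin 8)) (n : ℕ) : val (pw w n) = val w ^ n := by
  induction n with
  | zero => rw [pw, val_nil, pow_zero]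
  | succ n ih => rw [pw, val_append, ih, pow_succ]

/-- word of `x` -/
def wx : List (Fin 8) := [6, 3, 7, 2]
/-- word of `t = x ^ 11` -/
def wt : List (Fin 8) := pw wx 11
/-- word of `t g t g⁻¹` -/
def wa : List (Fin 8) := wt ++ ([3, 4, 6, 7, 5, 4, 6, 7, 7, 4, 6, 4] ++ wt ++ [4, 6, 4, 7, 6, 4, 5, 7, 7, 6, 4, 3])

noncomputable def x : G3 := val wx
noncomputable def a : G3 := val wa

theorem x_pow : x ^ 22 = 1 := by
  rw [x, ← val_pw, ← val_nil]
  exact eq_of_chkW (by decide +kernel)

theorem x_two : x ^ 2 ≠ 1 := by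
  rw [x, ← val_pw]
  exact ne_one_of_ev (by decide +kernel)

theorem x_eleven : x ^ 11 ≠ 1 := by
  rw [x, ← val_pw]
  exact ne_one_of_ev (by decide +kernel)

theorem a_pow : a ^ 3 = 1 := by
  rw [a, ← val_pw, ← val_nil]
  exact eq_of_chkW (by decide +kernel)

theorem a_ne : a ≠ 1 := ne_one_of_ev (by decide +kernel)

theorem inv_a : x ^ 11 * a * (x ^ 11)⁻¹ = a⁻¹ := by
  have h : val (wt ++ wa ++ (wt ++ wa)) = val [] := eq_of_chkW (by decide +kernel)
  rw [val_append, val_append, val_nil] at h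
  have h2 : val wt = x ^ 11 := val_pw _ _
  have h3 : x ^ 11 * x ^ 11 = 1 := by rw [← pow_add]; exact x_pow
  rw [h2] at h
  have h4 : (x ^ 11)⁻¹ = x ^ 11 := inv_eq_of_mul_eq_one_left h3
  rw [h4]
  apply eq_inv_of_mul_eq_one_left
  rw [← h]
  show x ^ 11 * a * x ^ 11 * a = x ^ 11 * a * (x ^ 11 * a)
  group

theorem comm_lt : ∀ k < 22, a * (x ^ k * a * (x ^ k)⁻¹) = (x ^ k * a * (x ^ k)⁻¹) * a := by
  have h : (List.range 22).all (fun k => chkW (wa ++ (pw wx k ++ wa ++ pw wx (22 - k)))
      ((pw wx k ++ wa ++ pw wx (22 - k)) ++ wa)) = true := by decide +kernel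
  intro k hk
  have h1 := List.all_eq_true.1 h k (List.mem_range.2 hk)
  have h2 := eq_of_chkW h1
  have h3 : (x ^ k)⁻¹ = x ^ (22 - k) := by
    apply inv_eq_of_mul_eq_one_right
    rw [← pow_add, Nat.add_sub_cancel' hk.le, x_pow]
  simp only [val_append, val_pw] at h2
  rw [h3]
  exact h2

theorem order_x : orderOf x = 22 := by
  have h1 : orderOf x ∣ 22 := orderOf_dvd_of_pow_eq_one x_pow
  have h2 : ¬ orderOf x ∣ 2 := fun h => x_two (orderOf_dvd_iff_pow_eq_one.1 h)
  have h3 : ¬ orderOf x ∣ 11 := fun h => x_eleven (orderOf_dvd_iff_pow_eq_one.1 h)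
  have h4 : orderOf x ∈ Nat.divisors 22 := Nat.mem_divisors.2 ⟨h1, by norm_num⟩
  have h5 : Nat.divisors 22 = {1, 2, 11, 22} := by decide +kernel
  rw [h5] at h4
  simp only [Finset.mem_insert, Finset.mem_singleton] at h4
  rcases h4 with h | h | h | h
  · exact absurd (h ▸ one_dvd _) h2
  · exact absurd (h ▸ dvd_rfl) h2
  · exact absurd (h ▸ dvd_rfl) h3
  · exact h

/-- the centralizer of an element of order 11 -/
theorem cent_eleven {y c : G3} (hy : orderOf y = 11) (hc : c * y = y * c) : c ^ 22 = 1 := by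
  have h1 := Cfsg.Agent.H555.TwoSp.c11 isoCo3_G3 (Subgroup.zpowers y) (by rw [Nat.card_zpowers, hy])
  have hm : c ∈ Subgroup.centralizer ((Subgroup.zpowers y : Subgroup G3) : Set G3) := by
    rw [Subgroup.mem_centralizer_iff]
    rintro _ ⟨j, rfl⟩
    exact ((show Commute c y from hc).zpow_right j).eq.symm
  have h2 := pow_card_eq_one' (x := (⟨c, hm⟩ : Subgroup.centralizer ((Subgroup.zpowers y : Subgroup G3) : Set G3)))
  rw [h1] at h2
  exact congrArg Subtype.val h2

theorem cent_x {c : G3} (hc : c * x = x * c) : c ∈ Subgroup.zpowers x := by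
  have hy : orderOf (x ^ 2) = 11 := by
    rw [orderOf_pow_of_dvd (by norm_num) (by rw [order_x]; norm_num), order_x]
  have h1 := Cfsg.Agent.H555.TwoSp.c11 isoCo3_G3 (Subgroup.zpowers (x ^ 2)) (by rw [Nat.card_zpowers, hy])
  have hle : Subgroup.zpowers x ≤ Subgroup.centralizer ((Subgroup.zpowers (x ^ 2) : Subgroup G3) : Set G3) := by
    rw [Subgroup.zpowers_le, Subgroup.mem_centralizer_iff]
    rintro _ ⟨j, rfl⟩
    exact (((Commute.refl x).pow_right 2).zpow_right j).eq.symm
  have heq := Subgroup.eq_of_le_of_card_ge hle (by rw [h1, Nat.card_zpowers, order_x])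
  rw [heq, Subgroup.mem_centralizer_iff]
  rintro _ ⟨j, rfl⟩
  exact (((show Commute c x from hc).pow_right 2).zpow_right j).eq.symm

/-- **The Frobenius group `3⁵ : 22`.** -/
theorem frob : Frob x (cl x a) := by
  have hcomm := comm_all (x := x) (a := a) (n := 22) (by norm_num) x_pow comm_lt
  refine frob_of a_ne hcomm (fun c hc => cent_x hc) ?_
  intro k g hg hk
  have hA := cl_comm hcomm
  have hg3 : g ^ 3 = 1 := cl_pow hA a_pow hg
  rw [or_iff_not_imp_left]
  intro hk1
  by_cases h2 : (x ^ k) ^ 2 = 1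
  · -- the involution
    have h3 : x ^ k = x ^ 11 := by
      have h4 : x ^ (k * 2) = 1 := by
        rw [zpow_mul]
        exact_mod_cast h2
      have h5 : ((22 : ℕ) : ℤ) ∣ k * 2 := by
        rw [← order_x]
        exact orderOf_dvd_iff_zpow_eq_one.2 h4
      have h6 : ∃ j : ℤ, k = 11 * j := ⟨k / 11, by omega⟩
      obtain ⟨j, rfl⟩ := h6
      have h7 : ¬ ((22 : ℕ) : ℤ) ∣ 11 * j := by
        intro h
        apply hk1
        rw [← order_x] at h
        exact orderOf_dvd_iff_zpow_eq_one.1 h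
      obtain ⟨i, hi⟩ : ∃ i : ℤ, j = 2 * i + 1 := ⟨j / 2, by omega⟩
      rw [hi, mul_add, zpow_add, mul_one, ← mul_assoc, zpow_mul]
      have h8 : x ^ ((11 : ℤ) * 2) = 1 := by
        have := x_pow
        exact_mod_cast this
      rw [h8, one_zpow, one_mul]
      norm_cast
    rw [h3] at hk
    have h4 := cl_inv hA ((Commute.refl x).pow_left 11) inv_a hg
    rw [hk, mul_inv_cancel_right] at h4
    have h5 : g * g = 1 := by
      nth_rewrite 1 [h4]
      exact inv_mul_cancel g
    calc g = g ^ 3 * (g * g)⁻¹ := by group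
      _ = 1 := by rw [hg3, h5]; simp
  · have h3 : orderOf ((x ^ k) ^ 2) = 11 := by
      have : Fact (Nat.Prime 11) := ⟨by norm_num⟩
      refine orderOf_eq_prime ?_ h2
      rw [← pow_mul, ← zpow_natCast, ← zpow_mul, mul_comm, zpow_mul]
      have := x_pow
      have h4 : x ^ ((2 * 11 : ℕ) : ℤ) = 1 := by exact_mod_cast this
      rw [h4, one_zpow]
    have h4 : g ^ 22 = 1 := cent_eleven h3 ((show Commute g (x ^ k) from hk.symm).pow_right 2)
    calc g = g ^ 22 * ((g ^ 3) ^ 7)⁻¹ := by group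
      _ = 1 := by rw [hg3, h4]; simp

end Cfsg.Agent.H635.CJ.CoThree
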