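import Cfsg.Agent.H121.Cyc.Ru

/-!
# Rudvalis: every nontrivial complex representation has degree at least 56 (helper635)

The weight spaces of `V × Z` nontrivial on `Z` have dimension at least two, because of the Sylow 2-subgroup of `Sz(8)`.
-/

set_option autoImplicit false
set_option linter.unusedSectionVars false

namespace Cfsg.Agent.H635.CJ.Ru

open Module Cfsg Cfsg.Agent.H122 Cfsg.Agent.RuB Cfsg.Agent.H121.Wt Cfsg.Agent.H121.Chr Cfsg.Agent.H121.Cyc.Ru

variable {G : Type*} [Group G] (C : Core G)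

theorem exists_ac : ∃ a c : K8, a * c ^ 4 + c * a ^ 4 = 1 := by decide +kernel

theorem U_z_comm (a b : K8) : C.U a 0 * C.z b = C.z b * C.U a 0 := by
  rw [C.z_eq, C.U_mul, C.U_mul]
  congr 1
  · rw [add_comm]
  · ring

theorem U_comm {a c : K8} (h : a * c ^ 4 + c * a ^ 4 = 1) : C.U a 0 * C.U c 0 = C.z 1 * (C.U c 0 * C.U a 0) := by
  rw [C.z_eq, C.U_mul, C.U_mul, C.U_mul, ← h]
  congr 1
  · ring
  · have h2 : c * a ^ 4 + c * a ^ 4 = 0 := K8.add_self _
    linear_combination -h2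

theorem U_x (a : K8) (p : A4 × K8) : C.U a 0 * x C p = x C p * C.U a 0 := by
  unfold x
  have h1 : C.v p.1 * C.U a 0 = C.U a 0 * C.v p.1 := C.v_comm p.1 _ (C.U_mem a 0)
  rw [← mul_assoc, ← h1, mul_assoc, U_z_comm, ← mul_assoc]

variable {W : Type*} [AddCommGroup W] [Module ℂ W] [FiniteDimensional ℂ W] (ρ : Representation ℂ G W)

theorem two_le {χ : AddChar (A4 × K8) ℂ} (hχ : wt (fun a => ρ (x C a)) χ ≠ ⊥) (h1 : sc χ 1 ≠ 1) :
    2 ≤ finrank ℂ (wt (fun a => ρ (x C a)) χ) := by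
  by_contra hlt
  have hne : finrank ℂ (wt (fun a => ρ (x C a)) χ) ≠ 0 := fun h => hχ (Submodule.finrank_eq_zero.1 h)
  have hone : finrank ℂ (wt (fun a => ρ (x C a)) χ) = 1 := by omega
  obtain ⟨⟨v, hv⟩, hv0, hspan⟩ := finrank_eq_one_iff'.1 hone
  have hv0' : v ≠ 0 := fun h => hv0 (Subtype.ext h)
  have hU : ∀ a : K8, ∃ l : ℂ, ρ (C.U a 0) v = l • v := by
    intro a
    have hmem : ρ (C.U a 0) v ∈ wt (fun a => ρ (x C a)) χ := by
      intro p
      show ρ (x C p) (ρ (C.U a 0) v) = χ p • ρ (C.U a 0) v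
      have h2 : ρ (x C p) (ρ (C.U a 0) v) = ρ (C.U a 0) (ρ (x C p) v) := by
        have h3 := congrArg (fun g => ρ g v) (U_x C a p)
        simp only [map_mul] at h3
        exact h3.symm
      have h4 : ρ (x C p) v = χ p • v := hv p
      rw [h2, h4, map_smul]
    obtain ⟨l, hl⟩ := hspan ⟨_, hmem⟩
    exact ⟨l, (congrArg Subtype.val hl).symm⟩
  obtain ⟨a, c, hac⟩ := exists_ac
  obtain ⟨l, hl⟩ := hU a
  obtain ⟨m, hm⟩ := hU c
  have hz : ρ (C.z 1) v = sc χ 1 • v := by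
    have h2 : ρ (x C (0, 1)) v = χ (0, 1) • v := hv (0, 1)
    have h3 : x C (0, 1) = C.z 1 := by
      unfold x
      rw [C.v_zero, one_mul]
    rw [h3] at h2
    exact h2
  have h5 := congrArg (fun g => ρ g v) (U_comm C hac)
  simp only [map_mul] at h5
  change ρ (C.U a 0) (ρ (C.U c 0) v) = ρ (C.z 1) (ρ (C.U c 0) (ρ (C.U a 0) v)) at h5
  rw [hm, hl, map_smul, map_smul, hl, hm, map_smul, map_smul, hz, smul_smul, smul_smul, smul_smul] at h5
  have h6 : m * l = l * m * sc χ 1 := by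
    by_contra hcon
    apply hcon
    have h7 : (m * l - l * m * sc χ 1) • v = 0 := by rw [sub_smul, h5, sub_self]
    rcases smul_eq_zero.1 h7 with h8 | h8
    · exact sub_eq_zero.1 h8
    · exact absurd h8 hv0'
  have hnz : ∀ (a : K8) (l : ℂ), ρ (C.U a 0) v = l • v → l ≠ 0 := by
    intro a l hl h0
    rw [h0, zero_smul] at hl
    apply hv0'
    have h9 : ρ (C.U a 0)⁻¹ (ρ (C.U a 0) v) = v := by
      have h10 : ρ (C.U a 0)⁻¹ * ρ (C.U a 0) = 1 := by rw [← map_mul, inv_mul_cancel, map_one]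
      exact congrArg (fun f : Module.End ℂ W => f v) h10
    rw [hl, map_zero] at h9
    exact h9.symm
  have hl0 := hnz a l hl
  have hm0 := hnz c m hm
  apply h1
  have h11 : l * m * (sc χ 1 - 1) = 0 := by linear_combination -h6
  rcases mul_eq_zero.1 h11 with h12 | h12
  · exact absurd h12 (mul_ne_zero hl0 hm0)
  · exact sub_eq_zero.1 h12

include C in
theorem minDeg [IsSimpleGroup G] : MinDeg G 56 := by
  classical
  intro W _ _ _ ρ hρ
  have hz1 : C.z 1 ≠ 1 := fun h => one_ne_zero (C.z_eq_one h)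
  have hR : IsAct fun a => ρ (x C a) := isAct_of ρ (x_add C)
  have hx1 : x C (0, 1) = C.z 1 := by
    unfold x
    rw [C.v_zero, one_mul]
  obtain ⟨χ, hχ, hχ1⟩ := exists_wt hR (a := ((0, 1) : A4 × K8)) (by
    show ρ (x C (0, 1)) ≠ 1
    rw [hx1]
    exact faithful ρ hρ hz1)
  have hsc : sc χ ≠ 1 := by
    intro h
    apply hχ1
    show sc χ 1 = 1
    rw [h]
    rfl
  have hpos : 2 ≤ finrank ℂ (wt (fun a => ρ (x C a)) (pc (fc χ) (sc χ))) := by
    rw [pc_fc_sc]
    exact two_le C ρ hχ hχ1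
  have hall : ∀ (μ : AddChar A4 ℂ) (ψ : AddChar K8 ℂ), ψ ≠ 1 →
      2 ≤ finrank ℂ (wt (fun a => ρ (x C a)) (pc μ ψ)) := by
    intro μ ψ hψ
    rw [wt_torus C ρ hψ hsc μ, wt_grow C ρ hsc μ (fc χ)]
    exact hpos
  let S : Finset (AddChar (A4 × K8) ℂ) :=
    ((Finset.univ : Finset (AddChar A4 ℂ)) ×ˢ ((Finset.univ : Finset (AddChar K8 ℂ)).erase 1)).map pcEquiv.toEmbedding
  have hcS : S.card = 28 := by
    rw [Finset.card_map, Finset.card_product, Finset.card_erase_of_mem (Finset.mem_univ _), Finset.card_univ,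
      Finset.card_univ]
    have e1 : Fintype.card (AddChar A4 ℂ) = 4 := by
      rw [card_addChar A4]
      rfl
    have e2 : Fintype.card (AddChar K8 ℂ) = 8 := by
      rw [card_addChar K8, K8.card]
    rw [e1, e2]
  have h1 := mul_card_le hR S 2 (by
    intro ξ hξ
    obtain ⟨⟨μ, ψ⟩, hp, rfl⟩ := Finset.mem_map.1 hξ
    rw [Finset.mem_product, Finset.mem_erase] at hp
    exact hall μ ψ hp.2.1)
  rwa [hcS] at h1

/-- **Every nontrivial complex representation of `Ru` has degree at least 56.** -/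
theorem ru {G : Type*} [Group G] [IsSimpleGroup G] (h : Spor.IsoRu G) : MinDeg G 56 := by
  obtain ⟨C, -⟩ := KFacts.Ru.exists_core h
  exact minDeg C

end Cfsg.Agent.H635.CJ.Ru
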